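import Cfsg.Agent.Lib.BG.T15_2Aux
import Cfsg.Agent.Lib.Coprime.HallHigman

/-!
S3235 (docs/TV.md): prime action of an abelian group of composite order (Feit-Thompson, Lemma 13.12).
-/

set_option autoImplicit false

namespace Cfsg.Lib.TV

open Subgroup Cfsg.Lib.BG Cfsg.Lib.Char Cfsg.Lib.Coprime

universe u

variable {G : Type*} [Group G] [Finite G] {K R R₀ V Z : Subgroup G}

omit [Finite G] in
theorem inner_mono [Fintype R] [Fintype R₀] (h0 : R₀ ≤ R) {χ : G → ℂ} (h : IsCharacter G χ) : ∃ a k : ℕ,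
    classInner (fun x : R => χ x) (fun _ => 1) = a ∧ classInner (fun x : R₀ => χ x) (fun _ => 1) = a + k := by
  obtain ⟨a, ha⟩ := (h.restrict R).exists_inner_eq_nat isCharacter_one
  obtain ⟨k, hk⟩ := Induce.exists_inner_comp_eq_add (inclusion h0) (h.restrict R) isIrrCharacter_one isCharacter_one
  exact ⟨a, k, ha, by rw [isIrrCharacter_one.inner_self, mul_one, ha] at hk; exact hk⟩

theorem inner_reg {H : Type*} [Group H] [Fintype H] {ψ : H → ℂ} (lam : H →* ℂˣ) {n ε : ℂ} (h1 : ψ 1 = n + ε)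
    (h2 : ∀ x, x ≠ 1 → ψ x = ε * lam x) : ∃ a : ℕ, a ≤ 1 ∧
      Nat.card H * classInner ψ (fun _ => 1) = n + ε * a * Nat.card H := by
  classical
  have n0 := card_ne_zero_complex H
  have h3 : ψ = (n / Nat.card H) • regChar H + ε • fun x => (lam x : ℂ) := by
    ext x
    rcases eq_or_ne x 1 with rfl | hx
    · simp only [h1, Pi.add_apply, Pi.smul_apply, regChar_one, smul_eq_mul, div_mul_cancel₀ _ n0]; simp
    · simp [h2 x hx, regChar_of_ne_one hx]
  rw [h3, classInner_add_left, classInner_smul_left, classInner_smul_left, classInner_regChar_left,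
    (isIrrCharacter_hom lam).inner_eq_ite isIrrCharacter_one, map_one, mul_one]
  split_ifs
  exacts [⟨1, le_rfl, by field_simp; simp⟩, ⟨0, zero_le_one, by field_simp; simp⟩]

theorem three_le (h0 : R₀ ≤ R) : 3 ≤ R₀.relIndex R ↔ 3 * Nat.card R₀ ≤ Nat.card R := by
  rw [← BG.card_mul_relIndex h0, mul_comm 3, mul_le_mul_iff_right₀ Nat.card_pos]

/-- A port of `Coprime.commutator_le_charKer` (same induction; read it first).  Constituents: for each
irreducible constituent `ψ` the multiplicity of the trivial character in `ψ|R` is at most that in `ψ|R₀`, and the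
sums are equal.  If some `x ∈ R#` lies in `ker ψ` then `⁅K, R⁆ ≤ ker ψ` because `K = ⁅K, x⁆ C_K(x)`,
`C_K(x) = C_K(R)`; else pass to `A / ker ψ` (`SemiPrime.map`; if only the solvable version is at hand, add the
hypothesis `Group.IsSolvable K`, which is available).  Faithful `ψ`, `K = P = ⁅P, R⁆` a `q`-group: if `P` is
abelian `ψ` vanishes on `R#`, so `ψ 1 / |R₀| = ψ 1 / |R|`.  Otherwise `exists_eq_regular_add`:
`ψ|R = k ρ + ε λ`, the two multiplicities are `k |R : R₀| + ε a` and `k + ε c` with `a, c ∈ {0, 1}`, so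
`k (|R : R₀| - 1) ≤ 1`, `k = 0`, `ψ 1 = 1`, against `ψ 1 = q ^ n`, `n ≠ 0`. -/
theorem nl_char (A : Type u) [Group A] [Finite A] : ∀ {K R R₀ : Subgroup A} [Fintype R] [Fintype R₀],
    R ≤ 𝐍(K) → Group.IsSolvable K → IsMulCommutative R → (Nat.card K).Coprime (Nat.card R) →
    SemiPrime K R → R₀ ≤ R → R₀ ≠ ⊥ → 3 ≤ R₀.relIndex R → ∀ {χ : A → ℂ}, IsCharacter A χ →
    classInner (fun x : R₀ => χ x) (fun _ => 1) = classInner (fun x : R => χ x) (fun _ => 1) →
      ⁅K, R⁆ ≤ charKer χ := by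
  classical
  induction hA : Nat.card A using Nat.strong_induction_on generalizing A with | _ m ih
  subst hA
  intro K R R₀ _ _ hRK hs ab hcop sp h0 h1 h3 χ hχ he
  have := Fintype.ofFinite A
  have sub : ∀ K₀ ≤ K, R ≤ 𝐍(K₀) → K₀ ⊔ R ≠ ⊤ → ∀ {χ : A → ℂ}, IsCharacter A χ →
      classInner (fun x : R₀ => χ x) (fun _ => 1) = classInner (fun x : R => χ x) (fun _ => 1) →
        ⁅K₀, R⁆ ≤ charKer χ := by
    intro K₀ k1 k2 k3 χ hχ he
    have l0 : R₀ ≤ K₀ ⊔ R := h0.trans le_sup_right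
    have h4 := ih _ (Core.card_lt_of_ne_top k3) _ rfl (K := K₀.subgroupOf (K₀ ⊔ R))
      (R := R.subgroupOf (K₀ ⊔ R)) (R₀ := R₀.subgroupOf (K₀ ⊔ R)) (subOf_le_norm k2 _)
      ((sol_subOf_iff le_sup_left).2 (sol_of_le hs k1)) inferInstance
      (by rw [subOf_card le_sup_right, subOf_card le_sup_left]; exact coprime_mono hcop k1 le_rfl)
      ((sp.mono_left k1).subOf le_sup_right) (subgroupOf_mono _ h0) ((subOf_eq_bot_iff l0).not.2 h1)
      (by rwa [relIndex_subgroupOf le_sup_right]) (hχ.restrict _)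
      ((classInner_comp_equiv (subgroupOfEquivOfLe l0) (fun x : R₀ => χ x) fun _ => 1).trans (he.trans
        (classInner_comp_equiv (subgroupOfEquivOfLe le_sup_right) (fun x : R => χ x) fun _ => 1).symm))
    rw [← Core.commutator_subgroupOf_map le_sup_left le_sup_right]
    rintro _ ⟨x, hx, rfl⟩
    exact hχ.mem_charKer_iff.mpr ((hχ.restrict _).mem_charKer_iff.mp (h4 hx))
  by_cases htop : K ⊔ R = ⊤
  swap
  · exact sub K le_rfl hRK htop hχ he
  have hKn : K.Normal := Core.normal_of_top_le_normalizer (htop ▸ sup_le le_normalizer hRK)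
  refine fun g hg => hχ.mem_charKer_iff.mpr (hχ.apply_eq_of_forall_constituent fun ψ hψ k1 => ?_)
  have h2 : classInner (fun x : R₀ => ψ x) (fun _ => 1) = classInner (fun x : R => ψ x) (fun _ => 1) := by
    obtain ⟨a, k, e1, e2⟩ := inner_mono h0 hψ.isCharacter
    obtain ⟨b, l, e3, e4⟩ := inner_mono h0 (hχ.sub_irr hψ k1)
    have e5 := (classInner_sub_left (fun x : R => χ x) (fun x : R => ψ x) fun _ => 1).symm.trans e3
    have e6 := (classInner_sub_left (fun x : R₀ => χ x) (fun x : R₀ => ψ x) fun _ => 1).symm.trans e4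
    have : k + l = 0 := by exact_mod_cast (by linear_combination he - e6 + e5 - e2 + e1 : (k : ℂ) + l = 0)
    rw [e1, e2, show k = 0 by omega, Nat.cast_zero, add_zero]
  refine hψ.isCharacter.mem_charKer_iff.mp ((?_ : ⁅K, R⁆ ≤ charKer ψ) hg)
  clear hg k1 he hχ g χ
  have := hψ.isCharacter.charKer_normal
  by_cases hx : charKer ψ ⊓ R = ⊥
  swap
  · obtain ⟨x, hx, x1⟩ := exists_ne_one hx
    have l : zpowers x ≤ R := zpowers_le.2 hx.2
    refine (commutator_le_of_subset_mul_centralizer (P := charKer ψ) fun k hk => ?_).trans (commutator_le_left _ _)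
    have := coprime_cent_prod (l.trans hRK) (coprime_mono hcop.symm l le_rfl) (.inr hs)
    rw [cent_zpowers, sp x hx.2 x1] at this
    obtain ⟨y, hy, z, hz, rfl⟩ := (mem_sup_left_norm (inf_le_left.trans (left_norm_comm _ _))).1 (this.ge hk)
    exact ⟨y, ((commutator_mono le_rfl (zpowers_le.2 hx.1)).trans (commutator_le_right _ _)) hy, by simpa using hz.2⟩
  by_cases hN : charKer ψ = ⊥
  swap
  · obtain ⟨ψ', k3, h4⟩ := hψ.isCharacter.exists_deflate (charKer ψ)
      fun x => hψ.isCharacter.mem_charKer_iff.mp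
    have h5 : ∀ X ≤ R, Nat.card (X.map (QuotientGroup.mk' (charKer ψ))) = Nat.card X := fun X hX =>
      (Nat.card_congr (mapEquiv _ (by
        rw [QuotientGroup.ker_mk', inf_comm]; exact eq_bot_mono hx (inf_le_inf_left _ hX))).toEquiv).symm
    have h7 : ∀ (X : Subgroup A) [Fintype X], classInner (fun x : X.map (QuotientGroup.mk' (charKer ψ)) => ψ' x)
        (fun _ => 1) = classInner (fun x : X => ψ x) (fun _ => 1) := fun X _ => by
      rw [← classInner_comp_surjective _ ((QuotientGroup.mk' (charKer ψ)).subgroupMap_surjective X)]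
      exact congrArg (classInner (G := X) · _) (funext fun x => h4 x)
    have h6 := ih _ (Core.card_quotient_lt hN) _ rfl (K := K.map (QuotientGroup.mk' _))
      (R := R.map (QuotientGroup.mk' _)) (R₀ := R₀.map (QuotientGroup.mk' _)) (map_norm _ hRK) (sol_map _ hs)
      (abelian_map _ ab) (h5 R le_rfl ▸ hcop.coprime_dvd_left (card_map_dvd _ _)) (sp.map _ hRK hcop hs)
      (map_mono h0) (fun e => h1 (card_eq_one.1 (by rw [← h5 R₀ h0, e, card_bot])))
      (by rwa [three_le (map_mono h0), h5 R le_rfl, h5 R₀ h0, ← three_le h0]) k3 (by rw [h7, h7, h2])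
    intro g hg
    rw [hψ.isCharacter.mem_charKer_iff, ← h4, ← h4]
    exact k3.mem_charKer_iff.mp (h6 (by rw [← map_commutator]; exact mem_map_of_mem _ hg))
  rw [hN, le_bot_iff, commutator_eq_bot_iff_le_centralizer]
  replace hcop := hcop.symm
  have hprop : ∀ K₀ < K, R ≤ 𝐍(K₀) → K₀ ≤ 𝐂(R) := by
    intro K₀ k3 h4
    rw [← commutator_eq_bot_iff_le_centralizer, ← le_bot_iff, ← hN]
    refine sub K₀ k3.le h4 (fun e => k3.ne ?_) hψ.isCharacter h2
    have := Core.sup_inf_of_le_normalizer' k3.le h4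
    rw [e, top_inf_eq, inf_eq_bot_of_coprime' hcop, sup_bot_eq] at this
    exact this.symm
  refine le_of_forall_invariant_pgroup_le hRK hcop (Or.inr hs) fun q P hq k3 h4 _ h5 => ?_
  rcases k3.lt_or_eq with h6 | rfl
  · exact hprop P h6 h5
  have := Fact.mk hq
  rcases (commutator_le_of_le_normalizer hRK).lt_or_eq with h6 | h6
  · exact le_centralizer_iff.mp (le_centralizer_of_commutator_le le_rfl (le_centralizer_iff.mp
      (hprop _ h6 (le_normalizer_commutator hRK le_normalizer)))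
      (hcop.coprime_dvd_right (card_dvd_of_le h6.le)))
  by_contra hcon
  rw [three_le h0] at h3
  have p0 : 0 < Nat.card R₀ := Nat.card_pos
  by_cases hab : IsMulCommutative P
  · have h7 := centralizer_inf_commutator_eq_bot hab hRK hcop
    rw [h6, inf_comm] at h7
    obtain ⟨⟨x, hx⟩, hx1⟩ := ne_bot_iff_exists_ne_one.mp (show P ≠ ⊥ by rintro rfl; exact hcon bot_le)
    have h8 : ∀ y ∈ R, y ≠ 1 → ψ y = 0 := fun y hy hy1 => Frobenius.apply_eq_zero_of_fpf P hψ
      ⟨x, hx, fun e => hx1 (Subtype.ext (mem_bot.mp (hN ▸ hψ.isCharacter.mem_charKer_iff.mpr e)))⟩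
      ((sp y hy hy1).trans h7)
    have e1 := classInner_one_of_vanish (H := R) h8
    have e2 := classInner_one_of_vanish (H := R₀) fun y hy => h8 y (h0 hy)
    rw [h2, ← e1, mul_eq_mul_right_iff, Nat.cast_inj] at e2
    exact hψ.apply_one_ne_zero (by rw [← e1, e2.resolve_left (by omega), mul_zero])
  obtain ⟨⟨-, -, h7⟩, h8⟩ := PGroup.isSpecial_of_centralizes_char_abelian h4 hRK
    (hcop.coprime_dvd_right (h4.card_eq_or_dvd.resolve_left fun e => hcon (by simp [card_eq_one.mp e])))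
    h6 fun H _ hH => le_centralizer_iff.mp (hprop _ (lt_of_le_of_ne (map_subtype_le _) fun e =>
      hab (e ▸ inferInstance)) (hRK.trans (normalizer_le_normalizer_map_subtype H)))
  replace h7 : ⁅P, P⁆ = P ⊓ 𝐂(P) := by
    rw [← map_subtype_commutator, h7, Core.map_subtype_center]
  obtain ⟨d, hd, h9, lam, k, ε, hε, h10, h11⟩ := exists_eq_regular_add (Z := P ⊓ 𝐂(P)) ab
    (ne_bot_mono h1 h0) htop hcop.symm inf_le_left
    (by
      rw [← centralizer_univ, ← coe_top, ← htop, Core.centralizer_sup]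
      exact le_inf inf_le_right (h8 ▸ inf_le_right))
    (fun x hx hx1 => ((sp x hx hx1).trans h8).le) hψ fun y hy hy' => by
      by_contra! h9
      refine hy' ⟨hy, fun w hw => commutatorElement_eq_one_iff_mul_comm.mp ?_⟩
      exact mem_bot.mp (hN ▸ hψ.isCharacter.mem_charKer_iff.mpr
        (h9 w hw (h7 ▸ commutator_mem_commutator hw hy)))
  obtain ⟨n, rfl⟩ := exists_eq_pow_of_sq_eq_relIndex h4 h9
  have hn : n ≠ 0 := by
    rintro rfl
    rw [pow_zero, one_pow, eq_comm, relIndex_eq_one] at h9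
    exact hab (le_centralizer_iff_isMulCommutative.mp (h9.trans inf_le_right))
  have := Nat.one_lt_pow hn hq.one_lt
  obtain ⟨c, c1, e1⟩ := inner_reg (ψ := fun x : R => ψ x) lam h10 h11
  obtain ⟨a, a1, e2⟩ := inner_reg (ψ := fun x : R₀ => ψ x) (lam.comp (inclusion h0)) h10
    fun x hx => h11 (inclusion h0 x) fun e => hx (inclusion_injective h0 (e.trans (map_one _).symm))
  have e3 := mul_left_cancel₀ (card_ne_zero_complex R) (e1.trans (by ring : _ = Nat.card R * ((k : ℂ) + ε * c)))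
  rw [h2, e3] at e2
  rw [hd] at h10
  have e4 : (Nat.card R₀ : ℤ) * (k + ε * c) = Nat.card R * k + ε * a * Nat.card R₀ := by exact_mod_cast e2
  have e5 : ((q ^ n : ℕ) : ℤ) = Nat.card R * k + ε := by exact_mod_cast h10
  generalize Nat.card R₀ = r₀ at *
  generalize Nat.card R = r at *
  rcases Nat.eq_zero_or_pos k with rfl | k0
  · omega
  have : 3 * r₀ * k ≤ r * k := Nat.mul_le_mul_right k h3
  have : r₀ ≤ r₀ * k := Nat.le_mul_of_pos_right _ k0
  rcases hε with rfl | rfl <;> interval_cases a <;> interval_cases c <;> push_cast at e4 <;> nlinarith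

/-- `exists_character_fixed` for each prime `ℓ`: `B = ⁅K, R⁆ ≤ ker χ` gives that `|C_V(B)|` and `|V|` have the
same `ℓ`-part. -/
theorem nl_cent (hR : R ≤ 𝐍(K)) (hs : Group.IsSolvable K) (ab : IsMulCommutative R)
    (cop : (Nat.card K).Coprime (Nat.card R)) (sp : SemiPrime K R) (h0 : R₀ ≤ R) (h1 : R₀ ≠ ⊥)
    (h3 : 3 ≤ R₀.relIndex R) (hV : K ⊔ R ≤ 𝐍(V)) (cV : (Nat.card ↥(K ⊔ R)).Coprime (Nat.card V))
    (sV : Group.IsSolvable V) (hC : V ⊓ 𝐂(R₀) = V ⊓ 𝐂(R)) : ⁅K, R⁆ ≤ 𝐂(V) := by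
  classical
  have := Fintype.ofFinite G
  have l0 : R₀ ≤ K ⊔ R := h0.trans le_sup_right
  refine cent_symm (inf_eq_left.1 (eq_of_le_of_card_le inf_le_left (Nat.eq_of_factorization_eq
    Nat.card_pos.ne' Nat.card_pos.ne' fun ℓ => ?_).le))
  obtain ⟨χ, hχ, h⟩ := exists_character_fixed ℓ (K ⊔ R).subtype (fun a => hV a.2) cV sV
  have k := nl_char _ (K := K.subgroupOf (K ⊔ R)) (R := R.subgroupOf (K ⊔ R)) (R₀ := R₀.subgroupOf (K ⊔ R))
    (subOf_le_norm hR _) ((sol_subOf_iff le_sup_left).2 hs) inferInstance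
    (by rwa [subOf_card le_sup_right, subOf_card le_sup_left]) (sp.subOf le_sup_right) (subgroupOf_mono _ h0)
    ((subOf_eq_bot_iff l0).not.2 h1) (by rwa [relIndex_subgroupOf le_sup_right]) hχ
    (by rw [h, h, subOf_map l0, subOf_map le_sup_right, hC])
  have e1 := h ⁅K.subgroupOf (K ⊔ R), R.subgroupOf (K ⊔ R)⁆
  have e2 := h ⊥
  rw [classInner_one_of_forall (χ := χ) fun x hx => hχ.mem_charKer_iff.1 (k hx),
    Core.commutator_subgroupOf_map le_sup_left le_sup_right] at e1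
  rw [classInner_one_of_forall (χ := χ) (fun x hx => by rw [mem_bot.1 hx]), Subgroup.map_bot, cent_bot,
    inf_top_eq] at e2
  exact_mod_cast e2.symm.trans e1

/-- Put `N = ⁅K, R⁆ = ⁅N, R⁆`.  Either induct on `|G|` (quotient of `K ⊔ R` by a minimal normal subgroup
`M ≤ K`, an `ℓ`-group: `N M / M` is nilpotent; an `R`-invariant Hall `ℓ'`-subgroup `L` of `N M` has
`L = ⁅L, R⁆` and centralizes `M` by `nl_cent`), or: for each prime `ℓ` an `R`-invariant Hall `ℓ'`-subgroup `L`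
of `K` has `⁅L, R⁆ ≤ 𝐂(O_ℓ(K))`. -/
theorem nl (hR : R ≤ 𝐍(K)) (hs : Group.IsSolvable K) (ab : IsMulCommutative R)
    (cop : (Nat.card K).Coprime (Nat.card R)) (sp : SemiPrime K R) (h0 : R₀ ≤ R) (h1 : R₀ ≠ ⊥)
    (h3 : 3 ≤ R₀.relIndex R) : Group.IsNilpotent ↥⁅K, R⁆ := by
  induction hK : Nat.card K using Nat.strong_induction_on generalizing G with | _ m ih
  subst hK
  by_cases k0 : K = ⊥
  · rw [k0, commutator_bot_left]; infer_instance
  obtain ⟨ℓ, hl, d⟩ := Nat.exists_prime_and_dvd (card_ne_one (Fitting_ne_bot hs k0))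
  haveI := Fact.mk hl
  have m0 := (nil_pcore_Hall (Fitting_nil K) {ℓ}).ne_bot hl d rfl
  rw [pcore_Fitting] at m0
  have nM := pcore_nml {ℓ} K
  have rM := norm_pcore hR {ℓ}
  have e0 := pcore_quo_pcore {ℓ} K
  have pM := pcore_pi {ℓ} K
  generalize 𝐎({ℓ}, K) = M at *
  have cR : ∀ X ≤ R, Nat.card (quo X M) = Nat.card X := fun X hX =>
    card_quo_of_disjoint (hX.trans rM) (disjoint_of_coprime (coprime_mono cop nM.le hX))
  have lN : ⁅K, R⁆ ≤ K := comm_le_left hR
  have nil := ih _ (by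
      have := card_quo_mul nM
      have : 1 < Nat.card M := (one_lt_card_iff_ne_bot M).2 m0
      have : 0 < Nat.card (quo K M) := Nat.card_pos
      nlinarith) (quo_norm hR M) (sol_quo hs M) (abelian_quo ab M) (coprime_quo cop M)
    (sp.quo hR nM.norm rM cop hs) (quo_mono h0 M) (fun e => h1 (card_eq_one.1 (by rw [← cR R₀ h0, e, card_bot])))
    (by rwa [three_le (quo_mono h0 M), cR R le_rfl, cR R₀ h0, ← three_le h0]) rfl
  rw [← quo_comm nM.norm rM] at nil
  have e1 := (nil_pcore_Hall nil {ℓ}).eq_bot_iff.1 (eq_bot_mono e0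
    ((Nml.quo ⟨lN, left_norm_comm K R⟩ M).pcore_le {ℓ}))
  obtain ⟨L, hL, rL⟩ := Hall.exists_inv {ℓ}ᶜ (right_norm_comm K R) (coprime_mono cop.symm le_rfl lN) (sol_of_le hs lN)
  have lL := hL.le.trans lN
  have l2 : ⁅L, R⁆ ≤ L := comm_le_left rL
  have e2 : quo ⁅L, R⁆ M = quo ⁅K, R⁆ M := by
    rw [quo_comm (lL.trans nM.norm) rM, (hL.quo (lN.trans nM.norm)).eq_self e1, ← quo_comm (lN.trans nM.norm) rM,
      coprime_commGid hR cop.symm]
  have cL : (Nat.card L).Coprime (Nat.card M) := (pM.coprime hL.pi).symm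
  refine nil_of_le (Core.isNilpotent_sup_of_le_centralizer (cent_symm (nl_cent rL (sol_of_le hs lL) ab
    (coprime_mono cop lL le_rfl) (sp.mono_left lL) h0 h1 h3 (sup_le (lL.trans nM.norm) rM)
    (Nat.Coprime.coprime_dvd_left (sup_comm L R ▸ Core.card_sup_dvd rL)
      (Nat.Coprime.mul_left (coprime_mono cop.symm le_rfl nM.le) cL)) (sol_of_le hs nM.le)
    ((sp.mono_left nM.le).cent h0 h1))) (pgroup_nil pM.pgroup) (nil_of_nil_quo ((l2.trans lL).trans nM.norm)
      (disjoint_of_coprime (coprime_mono cL.symm le_rfl l2)) (e2 ▸ nil)))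
    ((quo_le_quo_iff (lN.trans nM.norm) ((l2.trans lL).trans nM.norm)).1 e2.ge)

/-- `nl` in `𝐍(Z) / Z` (`quo`); `R ⊓ Z = ⊥`; a central extension of a nilpotent group is nilpotent. -/
theorem nl' (hR : R ≤ 𝐍(K)) (hs : Group.IsSolvable K) (ab : IsMulCommutative R)
    (cop : (Nat.card K).Coprime (Nat.card R)) (hZ : Z ≤ K) (hc : Z ≤ 𝐂(K)) (hn : R ≤ 𝐍(Z))
    (sp : ∀ x ∈ R, x ≠ 1 → ∀ k ∈ K, k * x * k⁻¹ * x⁻¹ ∈ Z → ∀ y ∈ R, k * y * k⁻¹ * y⁻¹ ∈ Z)
    (h0 : R₀ ≤ R) (h1 : R₀ ≠ ⊥) (h3 : 3 ≤ R₀.relIndex R) : Group.IsNilpotent ↥(⁅K, R⁆ ⊔ Z) := by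
  have kZ : K ≤ 𝐍(Z) := norm_of_cent (cent_symm hc)
  have cR : ∀ X ≤ R, Nat.card (quo X Z) = Nat.card X := fun X hX =>
    card_quo_of_disjoint (hX.trans hn) (disjoint_of_coprime (coprime_mono cop hZ hX))
  have nil := nl (quo_norm hR Z) (sol_quo hs Z) (abelian_quo ab Z) (coprime_quo cop Z) (fun x hx x1 => by
      refine le_antisymm (fun k hk => ⟨hk.1, mem_cent.2 fun y hy => ?_⟩) (inf_le_inf_left _ (cent_le_cent1 hx))
      obtain ⟨x, hx', rfl⟩ := mem_quo.1 hx
      obtain ⟨y, hy', rfl⟩ := mem_quo.1 hy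
      obtain ⟨k, hk', rfl⟩ := mem_quo.1 hk.1
      have key : ∀ y : 𝐍(Z), qhom Z k * qhom Z y = qhom Z y * qhom Z k ↔ (k * y * k⁻¹ * y⁻¹ : G) ∈ Z := fun y => by
        rw [← mul_inv_eq_iff_eq_mul, ← mul_inv_eq_one, ← map_inv, ← map_inv, ← map_mul, ← map_mul, ← map_mul,
          ← MonoidHom.mem_ker, qhom_ker]; rfl
      exact ((key y).2 (sp x hx' (fun e => x1 (by rw [show x = 1 from Subtype.ext e, map_one])) k hk'
        ((key x).1 (mem_cent1.1 hk.2)) y hy')).symm) (quo_mono h0 Z)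
    (fun e => h1 (card_eq_one.1 (by rw [← cR R₀ h0, e, card_bot])))
    (by rwa [three_le (quo_mono h0 Z), cR R le_rfl, cR R₀ h0, ← three_le h0])
  have l : ⁅K, R⁆ ⊔ Z ≤ K := sup_le (comm_le_left hR) hZ
  rw [← quo_comm kZ hn, ← quo_sup_self ((comm_le_left hR).trans kZ), sup_comm] at nil
  exact Subgroup.isNilpotent_of_ker_le_center (((qhom Z).comp (inclusion (l.trans kZ))).codRestrict (quo (⁅K, R⁆ ⊔ Z) Z)
    fun x => mem_quo.2 ⟨_, x.2, rfl⟩) fun x hx => mem_center_iff.2 fun y => Subtype.ext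
      (mem_cent.1 (hc ((qhom_ker Z).le (congrArg Subtype.val hx))) y (l y.2))

end Cfsg.Lib.TV
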